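import Cfsg.Agent.H226.Tall.Gen
import Cfsg.Agent.OddHalf.D6.QThree.Facts

/-!
# S2927: `Both K` from the facts `Base` of the ODD half (helper40)
-/

set_option autoImplicit false

namespace Cfsg.Agent.H40.Tall

open Subgroup Cfsg
open Cfsg.Agent.H239.CharPLocal (CP)
open Cfsg.Agent.H226.Tall
open Cfsg.Agent.OddHalf.D6.QThree.Facts

variable {K : Type*} [Group K] [Finite K] {z : K} {R : Subgroup K}

/-- a Sylow 2-subgroup of `C(z)` is one of `K`, it contains `R` -/
theorem exists_sylow (B : Base z R) : ∃ S : Sylow 2 K, (S : Subgroup K) ≤ centralizer ({z} : Set K) ∧ R ≤ S := by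
  have hp2 : Fact (Nat.Prime 2) := ⟨Nat.prime_two⟩
  have hRC : R ≤ centralizer ({z} : Set K) := fun r hr => mem_centralizer_singleton_iff.2 (B.RP r hr)
  have hR' : IsPGroup 2 ↥(R.subgroupOf (centralizer ({z} : Set K))) :=
    B.pR.comap_of_injective _ (Subgroup.subtype_injective _)
  obtain ⟨P, hP⟩ := hR'.exists_le_sylow
  have h1 : IsPGroup 2 ↥((P : Subgroup ↥(centralizer ({z} : Set K))).map (centralizer ({z} : Set K)).subtype) :=
    P.isPGroup'.map _
  have h2 : ¬ 2 ∣ ((P : Subgroup ↥(centralizer ({z} : Set K))).map (centralizer ({z} : Set K)).subtype).index := by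
    have h3 : ((P : Subgroup ↥(centralizer ({z} : Set K))).map (centralizer ({z} : Set K)).subtype).index =
        (P : Subgroup ↥(centralizer ({z} : Set K))).index * (centralizer ({z} : Set K)).index :=
      Subgroup.index_map_subtype _
    rw [h3, Nat.prime_two.dvd_mul]
    rintro (h | h)
    · exact P.not_dvd_index h
    · exact Nat.not_even_iff_odd.2 B.odd (even_iff_two_dvd.2 h)
  refine ⟨h1.toSylow h2, ?_, ?_⟩
  · rintro _ ⟨x, -, rfl⟩
    exact x.2
  · intro r hr
    exact ⟨⟨r, hRC hr⟩, hP hr, rfl⟩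

/-- all 2-central involutions are conjugate -/
theorem conj_of_twoC (B : Base z R) {t : K} (ht : TwoC t) : ∃ g : K, g * t * g⁻¹ = z := by
  have hp2 : Fact (Nat.Prime 2) := ⟨Nat.prime_two⟩
  obtain ⟨S, hS, hRS⟩ := exists_sylow B
  obtain ⟨ho, P, hP⟩ := ht
  obtain ⟨g, hg⟩ := MulAction.exists_smul_eq K P S
  have key : ∀ s ∈ (S : Subgroup K), s * (g * t * g⁻¹) = (g * t * g⁻¹) * s := by
    intro s hs
    rw [← hg] at hs
    have h1 : g⁻¹ * s * g ∈ (P : Subgroup K) := by
      rw [Sylow.coe_subgroup_smul, Subgroup.mem_pointwise_smul_iff_inv_smul_mem] at hs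
      have h5 : (MulAut.conj g)⁻¹ • s = g⁻¹ * s * g := by
        rw [← map_inv]
        simp [MulAut.smul_def]
      rwa [h5] at hs
    have h2 := mem_centralizer_singleton_iff.1 (hP h1)
    calc s * (g * t * g⁻¹) = g * ((g⁻¹ * s * g) * t) * g⁻¹ := by group
      _ = g * (t * (g⁻¹ * s * g)) * g⁻¹ := by rw [h2]
      _ = (g * t * g⁻¹) * s := by group
  refine ⟨g, ?_⟩
  rcases B.cR (g * t * g⁻¹) (key z (hRS B.zR)).symm (fun r hr => (key r (hRS hr)).symm) with h | h
  · exfalso
    have h1 : t = 1 := by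
      calc t = g⁻¹ * (g * t * g⁻¹) * g := by group
        _ = 1 := by rw [h]; group
    rw [h1, orderOf_one] at ho
    norm_num at ho
  · exact h

omit [Finite K] in
/-- an element of odd order commuting with `z` -/
theorem exists_odd (B : Base z R) : ∃ d : K, d * z = z * d ∧ d ≠ 1 ∧ Odd (orderOf d) := by
  by_contra hcon
  push Not at hcon
  have h1 : closure {x : K | x * z = z * x ∧ Odd (orderOf x)} ≤ ⊥ := by
    rw [closure_le]
    rintro x ⟨hx1, hx2⟩
    by_contra h
    exact hcon x hx1 h hx2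
  exact B.z1 (Subgroup.mem_bot.1 (h1 B.oz))

/-- **`RowOne`, `RowTwo` from the facts `Base`** -/
theorem both_of_base (B : Base z R) : Both K := by
  constructor
  · rintro t ht - W hW htW hCW w hw ⟨α, hα⟩
    obtain ⟨g, hg⟩ := conj_of_twoC B ht
    -- the conjugate of `W`
    have hWm : ∀ v, v ∈ W.comap (MulAut.conj g⁻¹).toMonoidHom ↔ g⁻¹ * v * g ∈ W := by
      intro v
      show MulAut.conj g⁻¹ v ∈ W ↔ _
      rw [MulAut.conj_apply, inv_inv]
    have hsq : ∀ v ∈ W.comap (MulAut.conj g⁻¹).toMonoidHom, v * v = 1 := by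
      intro v hv
      have h1 := hW _ ((hWm v).1 hv)
      calc v * v = g * ((g⁻¹ * v * g) * (g⁻¹ * v * g)) * g⁻¹ := by group
        _ = 1 := by rw [h1]; group
    have hzm : z ∈ W.comap (MulAut.conj g⁻¹).toMonoidHom := by
      rw [hWm, ← hg]
      have : g⁻¹ * (g * t * g⁻¹) * g = t := by group
      rw [this]; exact htW
    have hn : ∀ c, c * z = z * c → ∀ v ∈ W.comap (MulAut.conj g⁻¹).toMonoidHom,
        c * v * c⁻¹ ∈ W.comap (MulAut.conj g⁻¹).toMonoidHom := by
      intro c hc v hv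
      rw [hWm] at hv ⊢
      have h1 : g⁻¹ * c * g ∈ centralizer ({t} : Set K) := by
        rw [mem_centralizer_singleton_iff]
        have h2 : t = g⁻¹ * z * g := by rw [← hg]; group
        calc g⁻¹ * c * g * t = g⁻¹ * (c * z) * g := by rw [h2]; group
          _ = g⁻¹ * (z * c) * g := by rw [hc]
          _ = t * (g⁻¹ * c * g) := by rw [h2]; group
      have h3 := (mem_normalizer_iff.1 (hCW h1) (g⁻¹ * v * g)).1 hv
      have h4 : g⁻¹ * (c * v * c⁻¹) * g = g⁻¹ * c * g * (g⁻¹ * v * g) * (g⁻¹ * c * g)⁻¹ := by group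
      rw [h4]; exact h3
    -- `W` is abelian
    have hab : ∀ a ∈ W.comap (MulAut.conj g⁻¹).toMonoidHom, ∀ b ∈ W.comap (MulAut.conj g⁻¹).toMonoidHom,
        a * b = b * a := by
      intro a ha b hb
      have h1 := hsq _ (mul_mem ha hb)
      have h2 := hsq a ha
      have h3 := hsq b hb
      calc a * b = b⁻¹ * a⁻¹ := by
            rw [← mul_inv_rev]; exact eq_inv_of_mul_eq_one_left h1
        _ = b * a := by
            rw [inv_eq_of_mul_eq_one_left h2, inv_eq_of_mul_eq_one_left h3]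
    have h2g : IsPGroup 2 ↥(W.comap (MulAut.conj g⁻¹).toMonoidHom) := by
      rintro ⟨v, hv⟩
      refine ⟨1, Subtype.ext ?_⟩
      show v ^ 2 ^ 1 = 1
      rw [pow_one, pow_two]
      exact hsq v hv
    have hle := B.max _ h2g (fun n hn' => hab n hn' z hzm) hn
    have hm : g * w * g⁻¹ ∈ W.comap (MulAut.conj g⁻¹).toMonoidHom := by
      rw [hWm]
      have : g⁻¹ * (g * w * g⁻¹) * g = w := by group
      rw [this]; exact hw
    rcases B.ab _ hle hab hn _ hm with h | h
    · exfalso
      have h1 : w = 1 := by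
        calc w = g⁻¹ * (g * w * g⁻¹) * g := by group
          _ = 1 := by rw [h]; group
      have h2 : t = 1 := by
        apply α.injective
        rw [hα, h1, map_one]
      have h3 := ht.1
      rw [h2, orderOf_one] at h3
      norm_num at h3
    · calc w = g⁻¹ * (g * w * g⁻¹) * g := by group
        _ = g⁻¹ * (g * t * g⁻¹) * g := by rw [h, hg]
        _ = t := by group
  · refine rowTwo_of_odd fun t ht => ?_
    obtain ⟨g, hg⟩ := conj_of_twoC B ht
    obtain ⟨d, h1, h2, h3⟩ := exists_odd B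
    have ht' : t = g⁻¹ * z * g := by rw [← hg]; group
    refine ⟨g⁻¹ * d * g, ?_, ?_, ?_⟩
    · calc g⁻¹ * d * g * t = g⁻¹ * (d * z) * g := by rw [ht']; group
        _ = g⁻¹ * (z * d) * g := by rw [h1]
        _ = t * (g⁻¹ * d * g) := by rw [ht']; group
    · intro h
      apply h2
      calc d = g * (g⁻¹ * d * g) * g⁻¹ := by group
        _ = 1 := by rw [h]; group
    · have : g⁻¹ * d * g = MulAut.conj g⁻¹ d := by rw [MulAut.conj_apply, inv_inv]
      rw [this, MulEquiv.orderOf_eq]
      exact h3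

end Cfsg.Agent.H40.Tall
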